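import Cfsg.Agent.H335.Sd.Frame

/-!
# S4579, frames: from the frame lemma to `RealOnT` and to `Elem` (helper335)

* `FrM R β P` : the conjugates of the frame group by the elements of `N(T)`;
* `realOnT_of` : `RealOnT` for `FrM R β P`;
* `exists_sylow` : Sylow `2`-subgroups containing a given `2`-subgroup of the frame group;
* `elem_of_real` : `Elem Y` from the realness on `Q ∩ T`.
-/

set_option autoImplicit false
set_option linter.unusedSectionVars false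

namespace Cfsg.Agent.H335.Sd.RealT

open CoxeterSystem Cfsg.Agent.ChevalleyStructure.CoxeterGeom Cfsg.Agent.Tits.Roots Cfsg.Agent.Tits.Core
  Cfsg.Agent.Nodes.Reps Cfsg.Agent.Nodes.BNOf Cfsg.Agent.Nodes.Bruhat Cfsg.Agent.Nodes.FreeTorus
  Cfsg.Agent.ClosedExc Cfsg.Agent.ClosedExc.Rk
  Cfsg.Agent.ClosedExc.Frame Cfsg.Agent.H643.Sd Cfsg.Agent.H335.Sd.LemA
  Cfsg.Agent.H335.Sd.LemB Cfsg.Agent.H335.Sd.Frame Cfsg.Agent.H55.Sd

section gen

variable {Y : Type*} [Group Y]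

/-- the conjugates of a subgroup by the elements of the normaliser of `T` -/
def cjSet (T M0 : Subgroup Y) : Set (Subgroup Y) :=
  {M | ∃ m ∈ Subgroup.normalizer (T : Set Y), M = M0.map (MulAut.conj m).toMonoidHom}

/-- transport of the realness property to the conjugates -/
theorem realOnT_of (U T M0 : Subgroup Y)
    (h : ∀ Q : Sylow 2 Y, (Q : Subgroup Y) ≤ M0 → (∀ t ∈ T, (∃ k : ℕ, t ^ 2 ^ k = 1) → t ∈ (Q : Subgroup Y)) →
      ∀ f : (Q : Subgroup Y) →* ℂˣ, (∀ x : (Q : Subgroup Y), (x : Y) ∈ T → f x ^ 2 = 1) → ∀ x, f x ^ 2 = 1) :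
    RealOnT U T (cjSet T M0) := by
  rintro Q A hN f hf x
  obtain ⟨_, ⟨m, hm, rfl⟩, hQ⟩ := hN.frame
  have hmem : ∀ y : Y, y ∈ ((m⁻¹ • Q : Sylow 2 Y) : Subgroup Y) ↔ m * y * m⁻¹ ∈ (Q : Subgroup Y) := by
    intro y
    rw [Sylow.smul_def, Sylow.pointwise_smul_def, Subgroup.mem_pointwise_smul_iff_inv_smul_mem, ← map_inv, inv_inv,
      MulAut.smul_def, MulAut.conj_apply]
  let g : ((m⁻¹ • Q : Sylow 2 Y) : Subgroup Y) →* (Q : Subgroup Y) :=
    { toFun := fun y => ⟨m * y * m⁻¹, (hmem y).1 y.2⟩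
      map_one' := Subtype.ext (by simp)
      map_mul' := fun a b => Subtype.ext (by
        show m * ((a : Y) * b) * m⁻¹ = m * a * m⁻¹ * (m * b * m⁻¹)
        group) }
  have hTm : ∀ t : Y, t ∈ T ↔ m * t * m⁻¹ ∈ T := fun t => Subgroup.mem_normalizer_iff.1 hm t
  have h1 := h (m⁻¹ • Q) ?_ ?_ (f.comp g) ?_
  · have hx : m⁻¹ * (x : Y) * m ∈ ((m⁻¹ • Q : Sylow 2 Y) : Subgroup Y) := by
      rw [hmem]
      have h2 : m * (m⁻¹ * (x : Y) * m) * m⁻¹ = x := by group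
      rw [h2]
      exact x.2
    have h2 := h1 ⟨m⁻¹ * (x : Y) * m, hx⟩
    have h3 : g ⟨m⁻¹ * (x : Y) * m, hx⟩ = x := Subtype.ext (by
      show m * (m⁻¹ * (x : Y) * m) * m⁻¹ = x
      group)
    rw [MonoidHom.comp_apply, h3] at h2
    exact h2
  · intro y hy
    rw [hmem] at hy
    obtain ⟨z, hz, e⟩ := hQ hy
    have : z = y := (MulAut.conj m).injective e
    rwa [← this]
  · rintro t ht ⟨k, hk⟩
    rw [hmem]
    refine hN.sylT _ ((hTm t).1 ht) ⟨k, ?_⟩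
    rw [conj_pow, hk, mul_one, mul_inv_cancel]
  · intro y hy
    exact hf (g y) ((hTm y).1 hy)

variable [Finite Y]

/-- A `2`-subgroup of a subgroup of odd index is contained in a Sylow `2`-subgroup of the group lying in the subgroup. -/
theorem exists_sylow {M0 : Subgroup Y} (hM : Odd M0.index) {R0 : Subgroup Y} (hR : IsPGroup 2 R0) (hRM : R0 ≤ M0) :
    ∃ Q : Sylow 2 Y, R0 ≤ (Q : Subgroup Y) ∧ (Q : Subgroup Y) ≤ M0 := by
  have hR' : IsPGroup 2 (R0.subgroupOf M0) := hR.comap_of_injective M0.subtype M0.subtype_injective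
  obtain ⟨S, hS⟩ := hR'.exists_le_sylow
  have hSp : IsPGroup 2 ((S : Subgroup M0).map M0.subtype) := S.2.map _
  have : Fact (Nat.Prime 2) := ⟨Nat.prime_two⟩
  have hidx : ¬ 2 ∣ ((S : Subgroup M0).map M0.subtype).index := by
    rw [Subgroup.index_map_subtype]
    intro h1
    rcases (Nat.prime_two.dvd_mul).1 h1 with h2 | h2
    · exact S.not_dvd_index h2
    · exact (Nat.not_even_iff_odd.2 hM) (even_iff_two_dvd.2 h2)
  refine ⟨hSp.toSylow hidx, ?_, ?_⟩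
  · rw [IsPGroup.toSylow_coe]
    intro x hx
    exact ⟨⟨x, hRM hx⟩, hS (Subgroup.mem_subgroupOf.2 hx), rfl⟩
  · rw [IsPGroup.toSylow_coe]
    rintro _ ⟨x, -, rfl⟩
    exact x.2

/-- `Elem Y` from the realness on `Q ∩ T` for one Sylow subgroup. -/
theorem elem_of_real {T M0 : Subgroup Y} (hM : Odd M0.index)
    (h : ∀ Q : Sylow 2 Y, (Q : Subgroup Y) ≤ M0 → (∀ t ∈ T, (∃ k : ℕ, t ^ 2 ^ k = 1) → t ∈ (Q : Subgroup Y)) →
      ∀ f : (Q : Subgroup Y) →* ℂˣ, (∀ x : (Q : Subgroup Y), (x : Y) ∈ T → f x ^ 2 = 1) → ∀ x, f x ^ 2 = 1)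
    {R0 : Subgroup Y} (hR : IsPGroup 2 R0) (hRM : R0 ≤ M0)
    (hRT : ∀ t ∈ T, (∃ k : ℕ, t ^ 2 ^ k = 1) → t ∈ R0)
    (hf : ∀ Q : Sylow 2 Y, R0 ≤ (Q : Subgroup Y) → ∀ f : (Q : Subgroup Y) →* ℂˣ,
      ∀ x : (Q : Subgroup Y), (x : Y) ∈ T → f x ^ 2 = 1) : Elem Y := by
  obtain ⟨Q, hQ1, hQ2⟩ := exists_sylow hM hR hRM
  exact elem_of_sylow Q fun f x => h Q hQ2 (fun t ht hk => hQ1 (hRT t ht hk)) f (hf Q hQ1 f) x

end gen

end Cfsg.Agent.H335.Sd.RealT
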