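import Cfsg.Agent.H335.Sd.TwESix
import Cfsg.Agent.H641.Sd.TwE6

/-!
# S4579: `Row` for `²E₆(q)` (helper335, from the parts of helper641, helper491, helper55, helper150)
-/

set_option autoImplicit false
set_option linter.unusedSectionVars false

namespace Cfsg.Agent.H335.Sd.RowTwE6

open Cfsg.Lie Cfsg.Agent.H643.Sd

universe u

/-- **`Row` for `²E₆(q)`.** -/
theorem row_2e6 {S : Type u} [Group S] [Finite S] [IsSimpleGroup S] (h : Cfsg.Lie.Iso2E6 S) : Row S := by
  refine H641.Sd.TwE6.row_2e6_of ?_ h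
  intro K _ _ p _ _ q hp2 hq hK φ hφ hqq
  have hp : p.Prime := Fact.out
  have hKo : Odd (Fintype.card K) := by
    obtain ⟨n, -, hn⟩ := FiniteField.card K p
    rw [hn]
    exact (hp.odd_of_ne_two hp2).pow
  have ho : Odd q := by
    rw [hK] at hKo
    exact (Nat.odd_pow_iff two_ne_zero).1 hKo
  have hW : Finite CoxeterMatrix.F₄.Group :=
    Nat.finite_of_card_ne_zero (by rw [H491.Sd.FrTw.card_W]; norm_num)
  refine TwESix.frames_real_tw hφ hqq p CoxeterMatrix.F₄.toCoxeterSystem hq hK ho H491.Sd.FrTw.card_W ?_ _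
  intro z hz
  have h1 : z ∈ Subgroup.center ↥(twistedE6 K q) := Subgroup.mem_center_iff.2 fun y => (hz y).symm
  rwa [H641.Sd.TwE6.center_eq hq hK, Subgroup.mem_bot] at h1

end Cfsg.Agent.H335.Sd.RowTwE6
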